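import Cfsg.Agent.H68.MeetBase

/-!
# Trivial intersections of Sylow 2-subgroups from inverted elements of odd order

`of_inv` : a 2-central involution `z` inverts an element `g` of odd order whose centralizer has odd order.
-/

set_option autoImplicit false

namespace Cfsg.Agent.H865.Meet

open Subgroup Cfsg.Agent.H68.MeetB

/-- the criterion: `z` is an involution with centralizer of odd index, `g` an element inverted by `z`, of odd order, such
that `C(g)` has odd order -/
theorem of_inv {T : Type*} [Group T] [Finite T] {z g : T} (h2 : ¬ 2 ∣ (centralizer ({z} : Set T)).index)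
    (hz : z * z = 1) (hinv : z * g = g⁻¹ * z) (hodd : ¬ 2 ∣ orderOf g)
    (hcent : ¬ 2 ∣ Nat.card (centralizer ({g} : Set T))) : MeetIn 2 T := by
  have hF : Fact (Nat.Prime 2) := ⟨Nat.prime_two⟩
  -- a Sylow subgroup in the centralizer
  obtain ⟨P⟩ : Nonempty (Sylow 2 (centralizer ({z} : Set T))) := inferInstance
  -- `x` with `x z x⁻¹ = z g`
  obtain ⟨m, hm⟩ : ∃ m : ℕ, (g ^ m) ^ 2 = g := by
    obtain ⟨k, hk⟩ : ∃ k, orderOf g = 2 * k + 1 := ⟨orderOf g / 2, by omega⟩
    refine ⟨k + 1, ?_⟩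
    rw [← pow_mul, show (k + 1) * 2 = (2 * k + 1) + 1 by ring, ← hk, pow_succ, pow_orderOf_eq_one, one_mul]
  have hpow : ∀ n : ℕ, z * g ^ n = (g⁻¹) ^ n * z := by
    intro n
    induction n with
    | zero => rw [pow_zero, pow_zero, mul_one, one_mul]
    | succ n ih => rw [pow_succ, ← mul_assoc, ih, mul_assoc, hinv, ← mul_assoc, pow_succ]
  -- `x⁻¹ z x = g z` for `x = (g ^ m)⁻¹`
  have hxz : g ^ m * z * (g ^ m)⁻¹ = g * z := by
    have h1 : z * (g ^ m)⁻¹ = g ^ m * z := by
      have h3 := hpow m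
      have h4 : z * (g⁻¹) ^ m = g ^ m * z := by
        calc z * (g⁻¹) ^ m = z * ((g⁻¹) ^ m * z) * z⁻¹ := by group
          _ = z * (z * g ^ m) * z⁻¹ := by rw [h3]
          _ = (z * z) * g ^ m * z⁻¹ := by group
          _ = g ^ m * z := by rw [hz, one_mul, inv_eq_of_mul_eq_one_left hz]
      rwa [inv_pow] at h4
    rw [mul_assoc, h1, ← mul_assoc, ← sq, hm]
  have hP : ∀ y ∈ (P : Subgroup _).map (centralizer ({z} : Set T)).subtype, y * z = z * y := by
    rintro _ ⟨y, -, rfl⟩
    exact mem_centralizer_singleton_iff.1 y.2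
  refine MeetIn.of_one ((P : Subgroup _).map (centralizer ({z} : Set T)).subtype) (P.isPGroup'.map _) ?_
    ⟨(g ^ m)⁻¹, ?_⟩
  · rw [Subgroup.index_map, (MonoidHom.ker_eq_bot_iff _).2 (subtype_injective _), sup_bot_eq, range_subtype]
    intro h1
    rcases Nat.prime_two.dvd_mul.1 h1 with h3 | h3
    · exact P.not_dvd_index h3
    · exact h2 h3
  · intro y hy hxy
    have h3 := hP y hy
    have h4 := hP _ hxy
    have h5 : y * (g * z) = g * z * y := by
      rw [← hxz]
      rw [inv_inv] at h4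
      calc y * (g ^ m * z * (g ^ m)⁻¹) = g ^ m * ((g ^ m)⁻¹ * y * g ^ m * z) * (g ^ m)⁻¹ := by group
        _ = g ^ m * (z * ((g ^ m)⁻¹ * y * g ^ m)) * (g ^ m)⁻¹ := by rw [h4]
        _ = _ := by group
    have h6 : y * g = g * y := by
      have h7 : y * g * z = g * y * z := by rw [mul_assoc, h5, mul_assoc, mul_assoc, h3]
      exact mul_right_cancel h7
    -- `y` is a 2-element of `C(g)`
    have hyP : ∃ k : ℕ, y ^ 2 ^ k = 1 := by
      obtain ⟨w, hw, rfl⟩ := hy
      obtain ⟨k, hk⟩ := P.isPGroup' ⟨w, hw⟩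
      refine ⟨k, ?_⟩
      have h8 := congrArg (fun u : (P : Subgroup (centralizer ({z} : Set T))) => ((u : centralizer ({z} : Set T)) : T)) hk
      simpa using h8
    obtain ⟨k, hk⟩ := hyP
    have h8 : y ^ Nat.card (centralizer ({g} : Set T)) = 1 := by
      have h9 := pow_card_eq_one' (x := (⟨y, mem_centralizer_singleton_iff.2 h6⟩ : centralizer ({g} : Set T)))
      exact congrArg Subtype.val h9
    have h9 : Nat.Coprime (2 ^ k) (Nat.card (centralizer ({g} : Set T))) :=
      Nat.Coprime.pow_left k ((Nat.Prime.coprime_iff_not_dvd Nat.prime_two).2 hcent)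
    have h10 : y ^ Nat.gcd (2 ^ k) (Nat.card (centralizer ({g} : Set T))) = 1 := pow_gcd_eq_one.2 ⟨hk, h8⟩
    rwa [h9, pow_one] at h10

end Cfsg.Agent.H865.Meet
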