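import Cfsg.Agent.H865.Meet.CoThreeData
import Cfsg.Agent.H935.Meet.Base
import Cfsg.Agent.SporRec.Co3.Model

/-!
# Trivial intersections of Sylow 2-subgroups: `Co₃`

`C(Z)` has odd index, `C(Z) ∩ C(Z) ^ x` has order 60 for the sixth double coset.
-/

set_option autoImplicit false

namespace Cfsg.Agent.H865.Meet.CoThree

open Cfsg Subgroup Cfsg.Agent.H68.MeetB Cfsg.Agent.SporRec.TwoSp6.Model Cfsg.Agent.SporRec.Co3DC
  Cfsg.Agent.SporRec.Co3DC.Bound Cfsg.Agent.SporRec.Co3DC.Final Cfsg.Agent.SporRec.Co3DC.Count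
  Cfsg.Agent.SporRec.Co3.Chain Cfsg.Agent.SporRec.Co3.ChainData Cfsg.Agent.SporRec.Co3.Ident
  Cfsg.Agent.SporRec.LeechChain Cfsg.Agent.SporRec.LeechMod3 Cfsg.Agent.LeechMat.Core Cfsg.Agent.Lib.PackMat
  Cfsg.Agent.KFacts.Co3.Cent Cfsg.Agent.KFacts.Co3.Syl Cfsg.Agent.H865.Meet.CoThreeData

theorem hidx : ∀ k < 7, (KG phi0 (gg phi0 W0) k).index ≤ sz k := by
  have R := wrel0
  have h1 := fin_sound R fin1
  have h2 := fin_sound R fin2
  have h3 := fin_sound R fin3
  have h4 := fin_sound R fin4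
  have h5 := fin_sound R fin5
  have h6 := fin_sound R fin6
  rw [Bound.len1] at h1
  rw [Bound.len2] at h2
  rw [Bound.len3] at h3
  rw [Bound.len4] at h4
  rw [Bound.len5] at h5
  rw [Bound.len6] at h6
  intro k hk
  interval_cases k
  · have : KG phi0 (gg phi0 W0) 0 = ⊤ := by
      rw [eq_top_iff]
      intro a _
      exact ⟨a, (mul_one _).trans (one_mul _).symm⟩
    rw [this, Subgroup.index_top]
    exact le_refl 1
  · exact index_le h1.2 630 (by norm_num) (by norm_num)
  · exact index_le h2.2 30240 (by norm_num) (by norm_num)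
  · exact index_le h3.2 8960 (by norm_num) (by norm_num)
  · exact index_le h4.2 80640 (by norm_num) (by norm_num)
  · exact index_le h5.2 48384 (by norm_num) (by norm_num)
  · exact index_le h6.2 1920 (by norm_num) (by norm_num)

theorem card_KG : Nat.card (KG phi0 (gg phi0 W0) 5) = 60 := by
  have hfin := finite_G3
  have hU := card_U (φ := phi0) (g := gg phi0 W0) (fun k => (KG phi0 (gg phi0 W0) k).index) fun k _ => le_rfl
  have h1 : U phi0 (gg phi0 W0) = Set.univ := by
    rw [Set.eq_univ_iff_forall]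
    exact fun x => exists_rep x
  rw [h1, Set.ncard_univ, isCo3_G3.2] at hU
  have h2 := hU.2
  have h3 : ∑ k ∈ Finset.range 7, (KG phi0 (gg phi0 W0) k).index ≤
      1 + 630 + 30240 + 8960 + 80640 + (KG phi0 (gg phi0 W0) 5).index + 1920 := by
    simp only [Finset.sum_range_succ, Finset.sum_range_zero, zero_add]
    have e0 := hidx 0 (by norm_num)
    have e1 := hidx 1 (by norm_num)
    have e2 := hidx 2 (by norm_num)
    have e3 := hidx 3 (by norm_num)
    have e4 := hidx 4 (by norm_num)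
    have e6 := hidx 6 (by norm_num)
    have f0 : sz 0 = 1 := rfl
    have f1 : sz 1 = 630 := rfl
    have f2 : sz 2 = 30240 := rfl
    have f3 : sz 3 = 8960 := rfl
    have f4 : sz 4 = 80640 := rfl
    have f6 : sz 6 = 1920 := rfl
    omega
  have h4 : (KG phi0 (gg phi0 W0) 5).index ≤ 48384 := hidx 5 (by norm_num)
  have h5 : (KG phi0 (gg phi0 W0) 5).index = 48384 := by omega
  have h6 := (KG phi0 (gg phi0 W0) 5).card_mul_index
  rw [h5, Cfsg.Agent.SporRec.TwoSp6.Order.card_M] at h6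
  refine Nat.eq_of_mul_eq_mul_right (show 0 < 48384 by norm_num) (h6.trans ?_)
  norm_num

/-- the four-group -/
def four {G : Type*} [Group G] (a b : G) (ha : a * a = 1) (hb : b * b = 1) (hab : a * b = b * a) : Subgroup G where
  carrier := {1, a, b, a * b}
  one_mem' := Or.inl rfl
  mul_mem' := by
    intro x y hx hy
    have h1 : a * (a * b) = b := by rw [← mul_assoc, ha, one_mul]
    have h2 : b * (a * b) = a := by rw [hab, ← mul_assoc, hb, one_mul]
    have h3 : a * b * a = b := by rw [mul_assoc, ← hab, h1]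
    have h4 : a * b * b = a := by rw [mul_assoc, hb, mul_one]
    have h5 : a * b * (a * b) = 1 := by rw [← mul_assoc, h3, hb]
    simp only [Set.mem_insert_iff, Set.mem_singleton_iff] at hx hy ⊢
    rcases hx with rfl | rfl | rfl | rfl <;> rcases hy with rfl | rfl | rfl | rfl <;>
      simp [ha, hb, h1, h2, h3, h4, h5, ← hab]
  inv_mem' := by
    intro x hx
    have ha' : a⁻¹ = a := inv_eq_of_mul_eq_one_left ha
    have hb' : b⁻¹ = b := inv_eq_of_mul_eq_one_left hb
    simp only [Set.mem_insert_iff, Set.mem_singleton_iff] at hx ⊢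
    rcases hx with rfl | rfl | rfl | rfl
    · simp
    · simp [ha']
    · simp [hb']
    · simp [ha', hb', ← hab]

theorem mem_four {G : Type*} [Group G] {a b : G} {ha : a * a = 1} {hb : b * b = 1} {hab : a * b = b * a} {x : G} :
    x ∈ four a b ha hb hab ↔ x = 1 ∨ x = a ∨ x = b ∨ x = a * b := Iff.rfl

theorem card_four {G : Type*} [Group G] {a b : G} (ha : a * a = 1) (hb : b * b = 1) (hab : a * b = b * a)
    (ha1 : a ≠ 1) (hb1 : b ≠ 1) (hne : a ≠ b) : Nat.card (four a b ha hb hab) = 4 := by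
  have h : Nat.card (four a b ha hb hab) = ({1, a, b, a * b} : Set G).ncard := rfl
  rw [h, Set.ncard_insert_of_notMem, Set.ncard_insert_of_notMem, Set.ncard_pair]
  · intro h1
    exact ha1 (by rw [← mul_eq_right (a := a) (b := b)]; exact h1.symm)
  · rintro (h1 | h1)
    · exact hne h1
    · exact hb1 (by rw [← mul_eq_left (a := a) (b := b)]; exact (Set.mem_singleton_iff.1 h1).symm)
  · rintro (h1 | h1 | h1)
    · exact ha1 h1.symm
    · exact hb1 h1.symm
    · apply hne
      have h2 : a * b = b * b := by rw [hb]; exact (Set.mem_singleton_iff.1 h1).symm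
      exact mul_right_cancel h2

/-- a group of order 60 with a four-group meeting a conjugate trivially -/
theorem meetIn_of_four {D : Type*} [Group D] [Finite D] (hc : Nat.card D = 60) {a b t : D} (ha : a * a = 1)
    (hb : b * b = 1) (hab : a * b = b * a) (ha1 : a ≠ 1) (hb1 : b ≠ 1) (hne : a ≠ b)
    (ht : ∀ x ∈ ({a, b, a * b} : Set D), ∀ y ∈ ({a, b, a * b} : Set D), t * x ≠ y * t) : MeetIn 2 D := by
  have hF : Fact (Nat.Prime 2) := ⟨Nat.prime_two⟩
  have h4 := card_four ha hb hab ha1 hb1 hne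
  refine MeetIn.of_one (four a b ha hb hab) (IsPGroup.of_card (n := 2) (by rw [h4]; norm_num)) ?_ ⟨t, ?_⟩
  · have h5 := (four a b ha hb hab).card_mul_index
    rw [h4, hc] at h5
    omega
  · intro y hy hty
    by_contra hne1
    rcases hty with h | h
    · apply hne1
      rw [mul_inv_eq_one] at h
      simpa using h
    · rcases hy with h5 | h5
      · exact hne1 h5
      · exact ht y h5 _ h (by group)

/-- the value of a word -/
@[irreducible] noncomputable def V (l : List ℕ) : G3 := mw A Z W0 l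

theorem V_def (l : List ℕ) : V l = mw A Z W0 l := by unfold V; rfl

theorem V_append (u v : List ℕ) : V (u ++ v) = V u * V v := by
  rw [V_def, V_def, V_def]
  exact mw_append A Z W0 u v

theorem V_nil : V [] = 1 := by rw [V_def]; rfl

theorem V_Z : V [7] = Z := by
  rw [V_def]
  exact mw_z A Z W0

theorem V_eq {u v : List ℕ} (h : chk u v = true) : V u = V v := by
  rw [V_def, V_def]
  exact mw_eq h

theorem V_ne {R : ℕ} {u v : List ℕ}
    (hrow : (Nat.blt R (2 ^ (15 * 24)) && allBelow (fun i => Nat.blt (dg 15 R i) 3) 24) = true)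
    (h : chn R u v = true) : V u ≠ V v := by
  rw [V_def, V_def]
  exact mw_ne hrow h

theorem comm_of {l m : List ℕ} (h : chk (l ++ m) (m ++ l) = true) : V l * V m = V m * V l := by
  rw [← V_append, ← V_append]
  exact V_eq h

theorem gg_V : gg phi0 W0 5 = V wg := by
  rw [gg_eq 5 (by norm_num), V_def]
  rfl

theorem V_wgi : V wgi = (V wg)⁻¹ := by
  have h := V_eq k_g
  rw [V_append, V_nil] at h
  exact (inv_eq_of_mul_eq_one_right h).symm

theorem V_wz : V wz = V wg * Z * (V wg)⁻¹ := by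
  rw [wz, V_append, V_append, V_Z, V_wgi, mul_assoc]

/-- `H ∩ H ^ x` -/
noncomputable def D : Subgroup G3 := centralizer ({Z} : Set G3) ⊓
  (centralizer ({Z} : Set G3)).map (MulAut.conj (V wg)).toMonoidHom

theorem D_eq : D = (KG phi0 (gg phi0 W0) 5).map phi0 := by
  ext y
  rw [D, centralizer_Z, gg_V.symm]
  constructor
  · rintro ⟨⟨a, rfl⟩, ⟨_, ⟨b, rfl⟩, hb⟩⟩
    refine ⟨a, ⟨b, ?_⟩, rfl⟩
    have hb' : gg phi0 W0 5 * phi0 b * (gg phi0 W0 5)⁻¹ = phi0 a := hb
    rw [← hb', inv_mul_cancel_right]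
  · rintro ⟨a, ⟨b, hb⟩, rfl⟩
    refine ⟨⟨a, rfl⟩, ⟨_, ⟨b, rfl⟩, ?_⟩⟩
    change gg phi0 W0 5 * phi0 b * (gg phi0 W0 5)⁻¹ = phi0 a
    rw [← hb, mul_inv_cancel_right]

theorem card_D : Nat.card D = 60 := by
  rw [D_eq, ← card_KG]
  exact (Nat.card_congr ((KG phi0 (gg phi0 W0) 5).equivMapOfInjective phi0 phi0_inj).toEquiv).symm

theorem mem_D {l : List ℕ} (h1 : chk (l ++ [7]) ([7] ++ l) = true) (h2 : chk (l ++ wz) (wz ++ l) = true) : V l ∈ D := by
  have e1 := comm_of h1
  have e2 := comm_of h2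
  rw [V_Z] at e1
  rw [V_wz] at e2
  refine ⟨mem_centralizer_singleton_iff.2 e1, ⟨(V wg)⁻¹ * V l * V wg, mem_centralizer_singleton_iff.2 ?_, ?_⟩⟩
  · calc (V wg)⁻¹ * V l * V wg * Z = (V wg)⁻¹ * (V l * (V wg * Z * (V wg)⁻¹)) * V wg := by group
      _ = (V wg)⁻¹ * ((V wg * Z * (V wg)⁻¹) * V l) * V wg := by rw [e2]
      _ = _ := by group
  · change V wg * ((V wg)⁻¹ * V l * V wg) * (V wg)⁻¹ = V l
    group

theorem V_el3 (i : Fin 3) : V (el3 i) = V wa ∨ V (el3 i) = V wb ∨ V (el3 i) = V wa * V wb := by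
  fin_cases i
  · exact Or.inl rfl
  · exact Or.inr (Or.inl rfl)
  · exact Or.inr (Or.inr (V_append _ _))

theorem model : MeetIn 2 G3 := by
  have hfin := finite_G3
  refine Cfsg.Agent.H935.Meet.of_inter (H := centralizer ({Z} : Set G3)) ?_ (V wg) ?_
  · have h := odd_index
    rwa [← Nat.not_even_iff_odd, even_iff_two_dvd] at h
  change MeetIn 2 D
  have ea : V wa = V (el3 (0 : Fin 3)) := rfl
  have eb : V wb = V (el3 (1 : Fin 3)) := rfl
  have ec : V wa * V wb = V (el3 (2 : Fin 3)) := (V_append _ _).symm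
  refine meetIn_of_four card_D (a := ⟨V wa, mem_D k_aZ k_az⟩) (b := ⟨V wb, mem_D k_bZ k_bz⟩)
    (t := ⟨V wt, mem_D k_tZ k_tz⟩) ?_ ?_ ?_ ?_ ?_ ?_ ?_
  · exact Subtype.ext (by
      change V wa * V wa = 1
      rw [← V_append, V_eq k_aa, V_nil])
  · exact Subtype.ext (by
      change V wb * V wb = 1
      rw [← V_append, V_eq k_bb, V_nil])
  · exact Subtype.ext (comm_of k_ab)
  · intro h
    have h1 : V wa = 1 := congrArg Subtype.val h
    rw [ea, ← V_nil] at h1
    exact V_ne row1 (n_1 0) h1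
  · intro h
    have h1 : V wb = 1 := congrArg Subtype.val h
    rw [eb, ← V_nil] at h1
    exact V_ne row1 (n_1 1) h1
  · intro h
    have h1 : V wa = V wb := congrArg Subtype.val h
    exact V_ne row1 (n_2 0 1 (by decide)) h1
  · have key : ∀ x ∈ ({⟨V wa, mem_D k_aZ k_az⟩, ⟨V wb, mem_D k_bZ k_bz⟩,
        ⟨V wa, mem_D k_aZ k_az⟩ * ⟨V wb, mem_D k_bZ k_bz⟩} : Set D), ∃ i : Fin 3, (x : G3) = V (el3 i) := by
      intro x hx
      simp only [Set.mem_insert_iff, Set.mem_singleton_iff] at hx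
      rcases hx with rfl | rfl | rfl
      · exact ⟨0, rfl⟩
      · exact ⟨1, rfl⟩
      · exact ⟨2, ec⟩
    intro x hx y hy h
    obtain ⟨i, hi⟩ := key x hx
    obtain ⟨j, hj⟩ := key y hy
    have h1 : V wt * (x : G3) = y * V wt := congrArg Subtype.val h
    rw [hi, hj, ← V_append, ← V_append] at h1
    have h2 := n_3 i j
    rw [Bool.or_eq_true, Bool.or_eq_true] at h2
    rcases h2 with (h2 | h2) | h2
    · exact V_ne row1 h2 h1
    · exact V_ne row2 h2 h1
    · exact V_ne row4 h2 h1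

theorem meet2_Co3 {G : Type*} [Group G] [Finite G] [IsSimpleGroup G] (h : Spor.IsoCo3 G) : MeetIn 2 G := by
  obtain ⟨e⟩ := h
  exact model.congr (e.trans SporRec.Co3.Model.equivCo3.symm).symm

end Cfsg.Agent.H865.Meet.CoThree
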