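import Cfsg.Agent.KFacts.Co3.Syl

/-!
# `Co3`: words for a four-group and an element of order 3 of `C(Z) ∩ C(Z ^ g)` (of order 60)
-/

set_option autoImplicit false

namespace Cfsg.Agent.H865.Meet.CoThreeData

open Cfsg Cfsg.Agent.Lib.PackMat Cfsg.Agent.SporRec.LeechMod3 Cfsg.Agent.SporRec.LeechChain
  Cfsg.Agent.SporRec.Co3.MatData Cfsg.Agent.SporRec.Co3.ChainData Cfsg.Agent.SporRec.Co3.Chain
  Cfsg.Agent.SporRec.Co3.Ident

def wg : List ℕ := [8, 3, 5, 8, 3, 8]
/-- the inverse of `wg` -/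
def wgi : List ℕ := [8, 8, 3, 7, 8, 8, 5, 7, 3, 7, 8, 8]
def wa : List ℕ := [0, 4, 3, 1, 2, 3, 5, 4, 3, 6, 2, 1, 3, 4, 5, 4, 0]
def wb : List ℕ := [0, 2, 3, 1, 2, 3, 5, 6, 5, 4, 3, 2, 1, 3, 4, 5, 6, 0]
def wt : List ℕ := [1, 3, 2, 4, 5, 4, 6, 3, 5, 4, 2, 1]
/-- the conjugate of `Z` -/
def wz : List ℕ := wg ++ ([7] ++ wgi)

theorem k_g : chk (wg ++ wgi) [] = true := by decide +kernel
theorem k_aa : chk (wa ++ wa) [] = true := by decide +kernel
theorem k_bb : chk (wb ++ wb) [] = true := by decide +kernel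
theorem k_ab : chk (wa ++ wb) (wb ++ wa) = true := by decide +kernel
theorem k_aZ : chk (wa ++ [7]) ([7] ++ wa) = true := by decide +kernel
theorem k_bZ : chk (wb ++ [7]) ([7] ++ wb) = true := by decide +kernel
theorem k_tZ : chk (wt ++ [7]) ([7] ++ wt) = true := by decide +kernel
theorem k_az : chk (wa ++ wz) (wz ++ wa) = true := by decide +kernel
theorem k_bz : chk (wb ++ wz) (wz ++ wb) = true := by decide +kernel
theorem k_tz : chk (wt ++ wz) (wz ++ wt) = true := by decide +kernel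

/-- the kernel check of an inequality of words -/
noncomputable def chn (V : ℕ) (u v : List ℕ) : Bool :=
  wok gs0 (u.flatMap exl) && wok gs0 (v.flatMap exl) &&
      !(Nat.beq (run cfg (wmats gs0 (u.flatMap exl)) V) (run cfg (wmats gs0 (v.flatMap exl)) V))

/-- the non-trivial elements of the four-group -/
def el3 (i : ℕ) : List ℕ := if i = 0 then wa else if i = 1 then wb else wa ++ wb

theorem n_1 : ∀ i : Fin 3, chn V1 (el3 i) [] = true := by decide +kernel
theorem n_2 : ∀ i j : Fin 3, i ≠ j → chn V1 (el3 i) (el3 j) = true := by decide +kernel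
theorem n_3 : ∀ i j : Fin 3, (chn V1 (wt ++ el3 i) (el3 j ++ wt) || chn V2 (wt ++ el3 i) (el3 j ++ wt) ||
  chn V4 (wt ++ el3 i) (el3 j ++ wt)) = true := by decide +kernel

end Cfsg.Agent.H865.Meet.CoThreeData
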