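import Cfsg.Agent.H865.Meet.Order6072
import Cfsg.Agent.H935.Meet.Base
import Cfsg.Agent.H863.J4Rank7Of
import Cfsg.Agent.H859.BigNum

/-!
# Trivial intersections of Sylow 2-subgroups: `J₄`

`N = 2¹¹ : M₂₄` has odd index and some `N ∩ N ^ x` has order 6072.
-/

set_option autoImplicit false

namespace Cfsg.Agent.H865.Meet.JFour

open Cfsg Subgroup Cfsg.Agent.H68.MeetB
open Cfsg.Agent.H863 Cfsg.Agent.H863.J4Rank7 Cfsg.Agent.H863.J4Rank7Of
open Cfsg.Agent.J4.Rep112 Cfsg.Agent.J4M.Base Cfsg.Agent.J4M.QBase Cfsg.Agent.J4M.MGroup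
open Cfsg.Agent.J4M.Decomp Cfsg.Agent.J4M.Order

theorem card : Nat.card Spor.J4 = 86775571046077562880 := Cfsg.Agent.S1703.result.2

theorem fin : Finite Spor.J4 := Nat.finite_of_card_ne_zero (by rw [card]; decide)

theorem cc_eq {G : Type*} [Group G] (H : Subgroup G) (x : G) :
    H ⊓ H.map (MulAut.conj x).toMonoidHom = DCAbs.cc H x := by
  ext y
  rw [mem_inf, DCAbs.mem_cc]
  refine and_congr_right fun _ => ?_
  constructor
  · rintro ⟨z, hz, rfl⟩
    have h : x⁻¹ * (MulAut.conj x).toMonoidHom z * x = z := by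
      change x⁻¹ * (x * z * x⁻¹) * x = z
      group
    rwa [h]
  · intro hy
    refine ⟨_, hy, ?_⟩
    change x * (x⁻¹ * y * x) * x⁻¹ = y
    group

theorem model : MeetIn 2 Spor.J4 := by
  have := fin
  let N : Subgroup Spor.J4 := (H.subgroupOf R).map equivR.symm.toMonoidHom
  obtain ⟨h1, c, -, -, h4⟩ := suborbits equivR.symm N rfl
  obtain ⟨x, hx⟩ := QuotientGroup.mk_surjective (c 6)
  have h5 := h4 6
  rw [← hx, DCAbs.ncard_orbit] at h5
  have h6 : len 6 = 82575360 := rfl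
  rw [h6] at h5
  have h7 := N.card_mul_index
  rw [h1, card] at h7
  have h8 : Nat.card (DCAbs.cc N x) * (DCAbs.cc N x).relIndex N = Nat.card N := by
    rw [← Nat.card_congr (subgroupOfEquivOfLe (DCAbs.cc_le N x)).toEquiv]
    exact ((DCAbs.cc N x).subgroupOf N).card_mul_index
  have h9 : Nat.card (DCAbs.cc N x) = 6072 := by
    rw [h5] at h8
    omega
  refine Cfsg.Agent.H935.Meet.of_inter (H := N) (by rw [h1]; norm_num) x ?_
  rw [cc_eq]
  refine Order6072.meetIn h9 ?_
  have h23 : ∀ g : Spor.J4, orderOf g = 23 → Nat.card (centralizer ({g} : Set Spor.J4)) = 23 := by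
    intro g hg
    rw [← Order6072.centralizer_zpowers]
    exact (Cfsg.Agent.H859.BigNum.data23 (by rw [Nat.card_zpowers, hg])).1
  exact Order6072.card_centralizer_sub h23 _

theorem meet2_J4 {G : Type*} [Group G] [Finite G] [IsSimpleGroup G] (h : Spor.IsoJ4 G) : MeetIn 2 G := by
  obtain ⟨e⟩ := h
  exact model.congr e.symm

end Cfsg.Agent.H865.Meet.JFour
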