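import Cfsg.Agent.H68.MeetBase
import Cfsg.Agent.H859.PrimeSub

/-!
# Groups of order 6072 whose elements of order 23 have centralizers of order 23
-/

set_option autoImplicit false

namespace Cfsg.Agent.H865.Meet.Order6072

open Subgroup Cfsg.Agent.H68.MeetB Cfsg.Agent.H859

theorem centralizer_zpowers {G : Type*} [Group G] (x : G) :
    centralizer ((zpowers x : Subgroup G) : Set G) = centralizer ({x} : Set G) := by
  apply le_antisymm
  · exact centralizer_le (by rw [Set.singleton_subset_iff]; exact mem_zpowers x)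
  · intro g hg
    rw [mem_centralizer_singleton_iff] at hg
    rw [mem_centralizer_iff]
    rintro _ ⟨k, rfl⟩
    exact ((show Commute g x from hg).zpow_right k).eq.symm

/-- numerical data for an element -/
theorem data {G : Type*} [Group G] [Finite G] {p : ℕ} [Fact p.Prime] {g : G} (hg : orderOf g = p)
    (hpp : ¬ p * p ∣ Nat.card G) : ∃ j i m, j ∣ p - 1 ∧ i % p = 1 ∧
      Nat.card (centralizer ({g} : Set G)) = p * m ∧
      Nat.card (normalizer ((zpowers g : Subgroup G) : Set G)) = j * (p * m) ∧ j * (p * m) * i = Nat.card G := by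
  have h := PrimeSub.exists_data (P := zpowers g) (by rw [Nat.card_zpowers, hg]) hpp
  rwa [centralizer_zpowers] at h

/-- the Sylow subgroup generated by an element of prime order -/
noncomputable def syl {G : Type*} [Group G] [Finite G] {p : ℕ} [Fact p.Prime] {g : G} (hg : orderOf g = p)
    (hpp : ¬ p * p ∣ Nat.card G) : Sylow p G :=
  (IsPGroup.of_card (n := 1) (p := p) (by rw [Nat.card_zpowers, hg, pow_one]) : IsPGroup p (zpowers g)).toSylow (by
    intro h
    apply hpp
    rw [← (zpowers g).card_mul_index, Nat.card_zpowers, hg]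
    exact Nat.mul_dvd_mul_left p h)

theorem syl_coe {G : Type*} [Group G] [Finite G] {p : ℕ} [Fact p.Prime] {g : G} (hg : orderOf g = p)
    (hpp : ¬ p * p ∣ Nat.card G) : ((syl hg hpp : Sylow p G) : Subgroup G) = zpowers g := rfl

/-- normal complement of a self-centralizing (relative to its normalizer) subgroup of prime order -/
theorem exists_compl {G : Type*} [Group G] [Finite G] {p : ℕ} [Fact p.Prime] {g : G} (hg : orderOf g = p)
    (hpp : ¬ p * p ∣ Nat.card G) (h : Nat.card (normalizer ((zpowers g : Subgroup G) : Set G)) =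
      Nat.card (centralizer ({g} : Set G))) :
    ∃ K : Subgroup G, K.Normal ∧ Nat.card K * p = Nat.card G := by
  have h1 : centralizer ((zpowers g : Subgroup G) : Set G) ≤ normalizer ((zpowers g : Subgroup G) : Set G) :=
    centralizer_le_normalizer _
  have h2 : normalizer ((zpowers g : Subgroup G) : Set G) ≤ centralizer ((zpowers g : Subgroup G) : Set G) := by
    rw [← centralizer_zpowers] at h
    exact (eq_of_le_of_card_ge h1 h.le).ge
  refine ⟨(MonoidHom.transferSylow (syl hg hpp) h2).ker, inferInstance, ?_⟩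
  have h3 := (MonoidHom.ker_transferSylow_isComplement' (syl hg hpp) h2).card_mul_card
  have h4 : Nat.card ((syl hg hpp : Sylow p G) : Subgroup G) = p := by rw [syl_coe, Nat.card_zpowers, hg]
  rwa [h4] at h3

/-- an element of order prime to the index of a normal subgroup -/
theorem mem_of_coprime {G : Type*} [Group G] [Finite G] {K : Subgroup G} (hK : K.Normal) {x : G}
    (h : Nat.Coprime (orderOf x) K.index) : x ∈ K := by
  have h1 : orderOf (QuotientGroup.mk' K x) ∣ orderOf x := orderOf_map_dvd _ x
  have h2 : orderOf (QuotientGroup.mk' K x) ∣ K.index := orderOf_dvd_natCard _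
  have h3 := Nat.dvd_gcd h1 h2
  rw [h, Nat.dvd_one, orderOf_eq_one_iff] at h3
  exact (QuotientGroup.eq_one_iff x).1 h3

/-- no such group of order 552 -/
theorem false_of_552 {G : Type*} [Group G] [Finite G] (hc : Nat.card G = 552)
    (h : ∀ g : G, orderOf g = 23 → Nat.card (centralizer ({g} : Set G)) = 23) : False := by
  have h23 : Fact (Nat.Prime 23) := ⟨by norm_num⟩
  have hp2 : Fact (Nat.Prime 2) := ⟨by norm_num⟩
  have hp3 : Fact (Nat.Prime 3) := ⟨by norm_num⟩
  have hpp : ¬ 23 * 23 ∣ Nat.card G := by rw [hc]; norm_num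
  obtain ⟨g, hg⟩ := exists_prime_orderOf_dvd_card' (G := G) 23 (by rw [hc]; norm_num)
  obtain ⟨j, i, m, hj, hi, hC, hN, hG⟩ := data hg hpp
  rw [h g hg] at hC
  have hm : m = 1 := by omega
  subst hm
  rw [hc] at hG
  have hj1 : j = 1 := by
    have h1 : j ∈ Nat.divisors 22 := Nat.mem_divisors.2 ⟨hj, by norm_num⟩
    have h2 : Nat.divisors 22 = {1, 2, 11, 22} := by decide
    rw [h2] at h1
    simp only [Finset.mem_insert, Finset.mem_singleton] at h1
    rcases h1 with rfl | rfl | rfl | rfl <;> omega
  subst hj1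
  obtain ⟨M, hM, hMc⟩ := exists_compl hg hpp (by rw [hN, h g hg])
  rw [hc] at hMc
  have hM24 : Nat.card M = 24 := by omega
  obtain ⟨u, hu⟩ := exists_prime_orderOf_dvd_card' (G := M) 2 (by rw [hM24]; norm_num)
  obtain ⟨v, hv⟩ := exists_prime_orderOf_dvd_card' (G := M) 3 (by rw [hM24]; norm_num)
  have hfree : ∀ (w : G) (a b : Fin 23), w ∈ M → w ≠ 1 →
      g ^ (a : ℕ) * w * (g ^ (a : ℕ))⁻¹ = g ^ (b : ℕ) * w * (g ^ (b : ℕ))⁻¹ → a = b := by
    intro w a b hw hw1 hab
    by_contra hne
    -- `w` commutes with a generator of `⟨g⟩`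
    have h1 : Commute w (g ^ ((a : ℤ) - (b : ℤ))) := by
      have h2 : g ^ ((a : ℤ) - (b : ℤ)) = (g ^ (b : ℕ))⁻¹ * g ^ (a : ℕ) := by
        rw [zpow_sub, zpow_natCast, zpow_natCast]
        exact (((Commute.refl g).pow_pow _ _).inv_right).eq
      rw [h2]
      change w * ((g ^ (b : ℕ))⁻¹ * g ^ (a : ℕ)) = (g ^ (b : ℕ))⁻¹ * g ^ (a : ℕ) * w
      calc w * ((g ^ (b : ℕ))⁻¹ * g ^ (a : ℕ)) =
          (g ^ (b : ℕ))⁻¹ * (g ^ (b : ℕ) * w * (g ^ (b : ℕ))⁻¹) * g ^ (a : ℕ) := by group
        _ = (g ^ (b : ℕ))⁻¹ * (g ^ (a : ℕ) * w * (g ^ (a : ℕ))⁻¹) * g ^ (a : ℕ) := by rw [hab]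
        _ = _ := by group
    set g' : G := g ^ ((a : ℤ) - (b : ℤ)) with hg'
    have h3 : orderOf g' = 23 := by
      apply orderOf_eq_prime
      · have h4 : g ^ 23 = 1 := by
          have h5 := pow_orderOf_eq_one g
          rwa [hg] at h5
        rw [hg', ← zpow_natCast, ← zpow_mul, mul_comm, zpow_mul, zpow_natCast, h4, one_zpow]
      · intro h4
        have h5 := orderOf_dvd_iff_zpow_eq_one.2 h4
        rw [hg] at h5
        have h6 := a.2
        have h7 := b.2
        have h8 : (a : ℕ) ≠ b := fun h => hne (Fin.ext h)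
        omega
    -- so `w` has order 23
    have h4 : orderOf w ∣ 23 := by
      rw [← h g' h3, ← Subgroup.orderOf_mk w (mem_centralizer_singleton_iff.2 h1.eq)]
      exact orderOf_dvd_natCard _
    have h5 : orderOf w ∣ 24 := by
      rw [← hM24, ← Subgroup.orderOf_mk w hw]
      exact orderOf_dvd_natCard _
    have h6 := Nat.dvd_gcd h4 h5
    norm_num at h6
    exact hw1 h6
  have hu1 : (u : G) ≠ 1 := by
    intro h1
    have : u = 1 := Subtype.ext h1
    rw [this, orderOf_one] at hu
    exact absurd hu (by norm_num)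
  have hv1 : (v : G) ≠ 1 := by
    intro h1
    have : v = 1 := Subtype.ext h1
    rw [this, orderOf_one] at hv
    exact absurd hv (by norm_num)
  let f : Fin 23 ⊕ Fin 23 → M := fun s => match s with
    | .inl a => ⟨g ^ (a : ℕ) * u * (g ^ (a : ℕ))⁻¹, hM.conj_mem _ u.2 _⟩
    | .inr a => ⟨g ^ (a : ℕ) * v * (g ^ (a : ℕ))⁻¹, hM.conj_mem _ v.2 _⟩
  have ho : ∀ (w : G) (a : ℕ), orderOf (g ^ a * w * (g ^ a)⁻¹) = orderOf w := fun w a =>
    (MulAut.conj (g ^ a)).orderOf_eq w
  have hdiff : ∀ a b : Fin 23, g ^ (a : ℕ) * u * (g ^ (a : ℕ))⁻¹ ≠ g ^ (b : ℕ) * v * (g ^ (b : ℕ))⁻¹ := by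
    intro a b hab
    have h1 := congrArg orderOf hab
    rw [ho, ho, Subgroup.orderOf_coe, Subgroup.orderOf_coe, hu, hv] at h1
    exact absurd h1 (by norm_num)
  have hf : Function.Injective f := by
    rintro (a | a) (b | b) hab
    · exact congrArg Sum.inl (hfree u a b u.2 hu1 (congrArg Subtype.val hab))
    · exact absurd (congrArg Subtype.val hab) (hdiff a b)
    · exact absurd (congrArg Subtype.val hab).symm (hdiff b a)
    · exact congrArg Sum.inr (hfree v a b v.2 hv1 (congrArg Subtype.val hab))
  have h1 := Nat.card_le_card_of_injective f hf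
  rw [hM24, Nat.card_sum, Nat.card_fin] at h1
  omega

/-- the centralizers of elements of order 23 in subgroups -/
theorem card_centralizer_sub {G : Type*} [Group G] [Finite G]
    (h : ∀ g : G, orderOf g = 23 → Nat.card (centralizer ({g} : Set G)) = 23) (K : Subgroup G) (g : K)
    (hg : orderOf g = 23) : Nat.card (centralizer ({g} : Set K)) = 23 := by
  apply le_antisymm
  · have hg' : orderOf (g : G) = 23 := by rw [Subgroup.orderOf_coe, hg]
    rw [← h g hg']
    refine Nat.card_le_card_of_injective (fun x : centralizer ({g} : Set K) =>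
      (⟨((x : K) : G), mem_centralizer_singleton_iff.2 (congrArg Subtype.val (mem_centralizer_singleton_iff.1 x.2))⟩ :
        centralizer ({(g : G)} : Set G))) ?_
    intro x y hxy
    exact Subtype.ext (Subtype.ext (congrArg (fun z => ((z : centralizer ({(g : G)} : Set G)) : G)) hxy))
  · rw [← hg, ← Nat.card_zpowers]
    apply Nat.card_le_card_of_injective (Subgroup.inclusion (K := centralizer ({g} : Set K)) ?_)
      (Subgroup.inclusion_injective _)
    rw [zpowers_le]
    exact mem_centralizer_singleton_iff.2 rfl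

/-- the numerical data for an element of order 11, 23 Sylow subgroups excluded -/
theorem eleven {D : Type*} [Group D] [Finite D] (hc : Nat.card D = 6072)
    (h23 : ∀ g : D, orderOf g = 23 → Nat.card (centralizer ({g} : Set D)) = 23) {h : D} (hh : orderOf h = 11) :
    Nat.card (centralizer ({h} : Set D)) = 11 := by
  have hF23 : Fact (Nat.Prime 23) := ⟨by norm_num⟩
  have hF11 : Fact (Nat.Prime 11) := ⟨by norm_num⟩
  have hpp : ¬ 23 * 23 ∣ Nat.card D := by rw [hc]; norm_num
  have hqq : ¬ 11 * 11 ∣ Nat.card D := by rw [hc]; norm_num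
  -- the normalizers of the subgroups of order 23
  have hN23 : ∀ g : D, orderOf g = 23 → Nat.card (normalizer ((zpowers g : Subgroup D) : Set D)) = 253 := by
    intro g hg
    obtain ⟨j, i, m, hj, hi, hC, hN, hG⟩ := data hg hpp
    rw [h23 g hg] at hC
    have hm : m = 1 := by omega
    subst hm
    rw [hc] at hG
    have h1 : j ∈ Nat.divisors 22 := Nat.mem_divisors.2 ⟨hj, by norm_num⟩
    have h2 : Nat.divisors 22 = {1, 2, 11, 22} := by decide
    rw [h2] at h1
    simp only [Finset.mem_insert, Finset.mem_singleton] at h1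
    rw [hN]
    rcases h1 with rfl | rfl | rfl | rfl <;> omega
  obtain ⟨g, hg⟩ := exists_prime_orderOf_dvd_card' (G := D) 23 (by rw [hc]; norm_num)
  obtain ⟨j, i, m, hj, hi, hC, hN, hG⟩ := data hh hqq
  rw [hc] at hG
  -- 23 does not divide `m`
  have hm : ¬ 23 ∣ m := by
    rintro ⟨m', hm'⟩
    obtain ⟨w, hw⟩ := exists_prime_orderOf_dvd_card' (G := centralizer ({h} : Set D)) 23 (by
      rw [hC, hm']; exact ⟨11 * m', by ring⟩)
    have h1 := h23 (w : D) (by rw [Subgroup.orderOf_coe, hw])
    have h2 : orderOf h ∣ Nat.card (centralizer ({(w : D)} : Set D)) := by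
      rw [← Subgroup.orderOf_mk h (mem_centralizer_singleton_iff.2 (mem_centralizer_singleton_iff.1 w.2).symm)]
      exact orderOf_dvd_natCard _
    rw [h1, hh] at h2
    norm_num at h2
  have h1 : j ∈ Nat.divisors 10 := Nat.mem_divisors.2 ⟨hj, by norm_num⟩
  have h2 : Nat.divisors 10 = {1, 2, 5, 10} := by decide
  rw [h2] at h1
  simp only [Finset.mem_insert, Finset.mem_singleton] at h1
  have hG' : j * m * i = 552 := by
    have h3 : 11 * (j * m * i) = 11 * 552 := by
      calc 11 * (j * m * i) = j * (11 * m) * i := by ring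
        _ = 11 * 552 := by rw [hG]
    omega
  -- `i = 23` or `i = 276`
  have hi' : i = 23 ∨ i = 276 := by
    have h3 : 23 ∣ j * m * i := by rw [hG']; norm_num
    have h4 : 23 ∣ i := by
      rcases (Nat.Prime.dvd_mul (by norm_num)).1 h3 with h4 | h4
      · rcases (Nat.Prime.dvd_mul (by norm_num)).1 h4 with h5 | h5
        · exfalso
          rcases h1 with rfl | rfl | rfl | rfl <;> norm_num at h5
        · exact absurd h5 hm
      · exact h4
    obtain ⟨i', rfl⟩ := h4
    have h5 : j * m * i' = 24 := by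
      have h6 : 23 * (j * m * i') = 23 * 24 := by
        calc 23 * (j * m * i') = j * m * (23 * i') := by ring
          _ = 23 * 24 := by rw [hG']
      omega
    have h7 : i' ∈ Nat.divisors 24 := Nat.mem_divisors.2 ⟨⟨j * m, by rw [← h5]; ring⟩, by norm_num⟩
    have h8 : Nat.divisors 24 = {1, 2, 3, 4, 6, 8, 12, 24} := by decide
    rw [h8] at h7
    simp only [Finset.mem_insert, Finset.mem_singleton] at h7
    rcases h7 with rfl | rfl | rfl | rfl | rfl | rfl | rfl | rfl <;> omega
  rcases hi' with rfl | rfl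
  · exfalso
    -- `|N(⟨h⟩)| = 264`
    have hNh : Nat.card (normalizer ((zpowers h : Subgroup D) : Set D)) = 264 := by
      rw [hN]
      omega
    -- all subgroups of order 11 lie in all normalizers of subgroups of order 23
    have key : ∀ g : D, orderOf g = 23 → h ∈ normalizer ((zpowers g : Subgroup D) : Set D) := by
      intro g hg
      obtain ⟨w, hw⟩ := exists_prime_orderOf_dvd_card' (G := normalizer ((zpowers g : Subgroup D) : Set D)) 11 (by
        rw [hN23 g hg]; norm_num)
      have hw' : orderOf (w : D) = 11 := by rw [Subgroup.orderOf_coe, hw]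
      obtain ⟨x, hx⟩ := MulAction.exists_smul_eq D (syl hw' hqq) (syl hh hqq)
      have hx' : (zpowers (w : D)).map (MulAut.conj x).toMonoidHom = zpowers h := congrArg Sylow.toSubgroup hx
      -- `D = N(⟨h⟩) ⟨g⟩`
      have hcop : IsComplement' (normalizer ((zpowers h : Subgroup D) : Set D)) (zpowers g) := by
        apply isComplement'_of_coprime
        · rw [hNh, Nat.card_zpowers, hg, hc]
        · rw [hNh, Nat.card_zpowers, hg]; norm_num
      obtain ⟨⟨a, b⟩, hab, -⟩ := hcop.existsUnique x
      simp only at hab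
      -- `⟨h⟩ = a⁻¹ ⟨h⟩ a = b ⟨w⟩ b⁻¹`
      have h3 : (zpowers h).map (MulAut.conj ((a : D)⁻¹)).toMonoidHom = zpowers h := by
        have h4 := (normalizer ((zpowers h : Subgroup D) : Set D)).inv_mem a.2
        ext y
        rw [mem_normalizer_iff] at h4
        constructor
        · rintro ⟨z, hz, rfl⟩
          exact (h4 z).1 hz
        · intro hy
          refine ⟨(a : D) * y * (a : D)⁻¹, ?_, ?_⟩
          · exact (mem_normalizer_iff.1 a.2 y).1 hy
          · change (a : D)⁻¹ * ((a : D) * y * (a : D)⁻¹) * ((a : D)⁻¹)⁻¹ = y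
            group
      have h4 : (h : D) ∈ (zpowers (w : D)).map (MulAut.conj (b : D)).toMonoidHom := by
        have h5 : (zpowers (w : D)).map (MulAut.conj (b : D)).toMonoidHom =
            ((zpowers (w : D)).map (MulAut.conj x).toMonoidHom).map (MulAut.conj ((a : D)⁻¹)).toMonoidHom := by
          rw [← hab, Subgroup.map_map]
          congr 1
          ext y
          change (b : D) * y * (b : D)⁻¹ = (a : D)⁻¹ * ((a : D) * b * y * ((a : D) * b)⁻¹) * ((a : D)⁻¹)⁻¹
          group
        rw [h5, hx', h3]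
        exact mem_zpowers h
      obtain ⟨y, hy, hyh⟩ := h4
      have hyN : y ∈ normalizer ((zpowers g : Subgroup D) : Set D) := (zpowers_le.2 w.2) hy
      have hbN : (b : D) ∈ normalizer ((zpowers g : Subgroup D) : Set D) := le_normalizer b.2
      rw [← hyh]
      exact mul_mem (mul_mem hbN hyN) (inv_mem hbN)
    -- the normal closure of `h` lies in `N(⟨g⟩)`
    have hconj : ∀ x : D, x * h * x⁻¹ ∈ normalizer ((zpowers g : Subgroup D) : Set D) := by
      intro x
      have h3 := key (x⁻¹ * g * x) (by
        have h4 : x⁻¹ * g * x = MulAut.conj x⁻¹ g := by rw [MulAut.conj_apply, inv_inv]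
        rw [h4, MulEquiv.orderOf_eq, hg])
      rw [mem_normalizer_iff] at h3 ⊢
      have h5 : ∀ y : D, y ∈ zpowers (x⁻¹ * g * x) ↔ x * y * x⁻¹ ∈ zpowers g := by
        intro y
        constructor
        · rintro ⟨k, rfl⟩
          refine ⟨k, ?_⟩
          have h6 : (x⁻¹ * g * x) ^ k = x⁻¹ * g ^ k * x := by
            have h7 := conj_zpow (i := k) (a := x⁻¹) (b := g)
            rwa [inv_inv] at h7
          simp only [h6]
          group
        · rintro ⟨k, hk⟩
          refine ⟨k, ?_⟩
          have h6 : (x⁻¹ * g * x) ^ k = x⁻¹ * g ^ k * x := by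
            have h7 := conj_zpow (i := k) (a := x⁻¹) (b := g)
            rwa [inv_inv] at h7
          simp only at hk ⊢
          rw [h6, hk]
          group
      intro y
      have h8 := h3 (x⁻¹ * y * x)
      rw [h5, h5] at h8
      have h9 : x * (x⁻¹ * y * x) * x⁻¹ = y := by group
      have h10 : x * (h * (x⁻¹ * y * x) * h⁻¹) * x⁻¹ = x * h * x⁻¹ * y * (x * h * x⁻¹)⁻¹ := by group
      rwa [h9, h10] at h8
    let K : Subgroup D := normalClosure {h}
    have hKn : K.Normal := normalClosure_normal
    have hK : K ≤ normalizer ((zpowers g : Subgroup D) : Set D) := by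
      rw [show K = closure (Group.conjugatesOfSet {h}) from rfl, closure_le]
      intro y hy
      obtain ⟨z, hz, hzy⟩ := Group.mem_conjugatesOfSet_iff.1 hy
      rw [Set.mem_singleton_iff] at hz
      subst hz
      obtain ⟨x, hx⟩ := isConj_iff.1 hzy
      rw [← hx]
      exact hconj x
    have hhK : h ∈ K := subset_normalClosure rfl
    have hKd : Nat.card K ∣ 11 * 23 := by
      have h3 := card_dvd_of_le hK
      rwa [hN23 g hg] at h3
    have hK11 : 11 ∣ Nat.card K := by
      rw [← hh, ← Subgroup.orderOf_mk h hhK]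
      exact orderOf_dvd_natCard _
    obtain ⟨k, hk⟩ := hK11
    have hk' : k ∣ 23 := by
      rw [hk] at hKd
      exact Nat.dvd_of_mul_dvd_mul_left (by norm_num) hKd
    rcases (Nat.dvd_prime hF23.out).1 hk' with rfl | rfl
    · -- `⟨h⟩` is normal
      have h3 : zpowers h = K := eq_of_le_of_card_ge (zpowers_le.2 hhK) (by rw [hk, Nat.card_zpowers, hh])
      have h4 : normalizer ((zpowers h : Subgroup D) : Set D) = ⊤ := by
        rw [h3]
        exact normalizer_eq_top_iff.2 hKn
      rw [h4, card_top, hc] at hNh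
      norm_num at hNh
    · have h3 : K = normalizer ((zpowers g : Subgroup D) : Set D) :=
        eq_of_le_of_card_ge hK (by rw [hN23 g hg, hk])
      have h4 : (zpowers g).Normal := by
        constructor
        rintro _ ⟨n, rfl⟩ x
        have h5 : x * g * x⁻¹ ∈ normalizer ((zpowers g : Subgroup D) : Set D) := by
          rw [← h3]
          exact hKn.conj_mem _ (h3.symm ▸ (le_normalizer (mem_zpowers g))) _
        have h6 : orderOf (x * g * x⁻¹) = 23 := by
          have h7 : x * g * x⁻¹ = MulAut.conj x g := rfl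
          rw [h7, MulEquiv.orderOf_eq, hg]
        have h7 : IsPGroup 23 (zpowers (x * g * x⁻¹)) :=
          IsPGroup.of_card (n := 1) (by rw [Nat.card_zpowers, h6, pow_one])
        have h8 := h7.inf_normalizer_sylow (syl hg hpp)
        rw [syl_coe] at h8
        have h9 : x * g * x⁻¹ ∈ zpowers g := by
          have h10 : x * g * x⁻¹ ∈ zpowers (x * g * x⁻¹) ⊓ normalizer ((syl hg hpp : Sylow 23 D) : Set D) :=
            ⟨mem_zpowers _, h5⟩
          rw [h8] at h10
          exact h10.2
        simp only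
        rw [← conj_zpow]
        exact zpow_mem h9 n
      have h5 := hN23 g hg
      rw [normalizer_eq_top_iff.2 h4, card_top, hc] at h5
      norm_num at h5
  · have h3 : j * m = 2 := by omega
    rcases h1 with rfl | rfl | rfl | rfl
    · exfalso
      have h4 : m = 2 := by omega
      subst h4
      obtain ⟨K, -, hK⟩ := exists_compl hh hqq (by rw [hN, hC, one_mul])
      rw [hc] at hK
      exact false_of_552 (G := K) (by omega) (card_centralizer_sub h23 K)
    · rw [hC]
      omega
    · omega
    · omega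

/-- **MeetIn 2** -/
theorem meetIn {D : Type*} [Group D] [Finite D] (hc : Nat.card D = 6072)
    (h23 : ∀ g : D, orderOf g = 23 → Nat.card (centralizer ({g} : Set D)) = 23) : MeetIn 2 D := by
  have hF2 : Fact (Nat.Prime 2) := ⟨by norm_num⟩
  have hF23 : Fact (Nat.Prime 23) := ⟨by norm_num⟩
  have hF11 : Fact (Nat.Prime 11) := ⟨by norm_num⟩
  refine MeetIn.of_index (n := 3) (m := 50) (by rw [hc]; norm_num) (fun y hy => ?_) (by norm_num)
  have h1 := (centralizer ({y} : Set D)).card_mul_index
  rw [hc] at h1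
  have hcomm : ∀ p : ℕ, Fact p.Prime → (∀ g : D, orderOf g = p → Nat.card (centralizer ({g} : Set D)) = p) →
      p ≠ 2 → ¬ p ∣ Nat.card (centralizer ({y} : Set D)) := by
    intro p hp hcp hp2 hd
    obtain ⟨w, hw⟩ := exists_prime_orderOf_dvd_card' (G := centralizer ({y} : Set D)) p hd
    have h3 := hcp (w : D) (by rw [Subgroup.orderOf_coe, hw])
    have h2 : orderOf y ∣ Nat.card (centralizer ({(w : D)} : Set D)) := by
      rw [← Subgroup.orderOf_mk y (mem_centralizer_singleton_iff.2 (mem_centralizer_singleton_iff.1 w.2).symm)]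
      exact orderOf_dvd_natCard _
    rw [hy, h3] at h2
    exact hp2 ((Nat.prime_dvd_prime_iff_eq hF2.out hp.out).1 h2).symm
  have h2 := hcomm 23 hF23 h23 (by norm_num)
  have h3 := hcomm 11 hF11 (fun g hg => eleven hc h23 hg) (by norm_num)
  have h4 : 23 ∣ (centralizer ({y} : Set D)).index := by
    rcases (Nat.Prime.dvd_mul hF23.out).1 (show 23 ∣ Nat.card (centralizer ({y} : Set D)) *
      (centralizer ({y} : Set D)).index by rw [h1]; norm_num) with h | h
    · exact absurd h h2
    · exact h
  have h5 : 11 ∣ (centralizer ({y} : Set D)).index := by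
    rcases (Nat.Prime.dvd_mul hF11.out).1 (show 11 ∣ Nat.card (centralizer ({y} : Set D)) *
      (centralizer ({y} : Set D)).index by rw [h1]; norm_num) with h | h
    · exact absurd h h3
    · exact h
  have h6 : 23 * 11 ∣ (centralizer ({y} : Set D)).index :=
    Nat.Coprime.mul_dvd_of_dvd_of_dvd (by norm_num) h4 h5
  have h7 := Nat.le_of_dvd (Nat.pos_of_ne_zero index_ne_zero_of_finite) h6
  omega

end Cfsg.Agent.H865.Meet.Order6072
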