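import Cfsg.Agent.KFacts.Ru.CentEng
import Cfsg.Agent.CpAutRuFive.Main

/-!
# `Ru`: `C(z) ∩ C(w z w)` has order at most 60: certificate and words
-/

set_option autoImplicit false
set_option maxRecDepth 100000
set_option exponentiation.threshold 5000

namespace Cfsg.Agent.H865.Meet.RuData

open Subgroup Cfsg Cfsg.Agent.Lib Cfsg.Agent.Lib.BitNet Cfsg.Agent.SporadicB Cfsg.Agent.SporadicB.RuData
  Cfsg.Agent.SporadicB.RuOrder
open Cfsg.Agent.RuD.Data Cfsg.Agent.SporRec.TCUpperCert Cfsg.Agent.SporRec.R3.Kernel Cfsg.Agent.RuD.Letters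
open Cfsg.Agent.KFacts.Ru.CentEng

/-- the two involutions -/
def wz : List ℕ := [1, 1]
def wy : List ℕ := [2, 1, 1, 2]

def ws : List (List ℕ) := [wz, wy, wz ++ wy ++ wz, wy ++ wz ++ wy, wz ++ wy ++ wz ++ wy ++ wz]

/-- instructions -/
def ins : List Ins := [
  .cnt 0 44, .cnt 2 44, .cnt 4 44, .cnt 6 44, .cnt 8 44, .and 4 6, .and 4 6, .base 1 158, .diff 13 8, .and 0 1,
  .cnt 0 4, .diff 15 11, .and 0 4, .diff 0 2, .cnt 0 3, .diff 18 15, .and 0 8, .diff 0 6, .diff 0 3, .cnt 0 1,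
  .and 7 0, .and 0 10, .diff 0 7, .row 0 219, .and 9 0, .and 0 17, .and 0 22, .and 0 27, .diff 0 17, .and 0 28,
  .and 0 10, .row 0 3523, .and 26 6, .diff 0 13, .and 0 23, .diff 0 3, .row 0 2045, .and 40 12, .diff 0 27, .and
  0 39, .diff 0 3, .row 0 1901, .and 46 27, .diff 0 32, .diff 0 7, .diff 0 37, .diff 0 14, .row 0 2534, .and 5
  28, .and 0 12, .diff 0 18, .and 0 43, .row 0 3705, .and 4 21, .diff 0 17, .row 0 3962, .and 61 30, .diff 0 37,
  .and 0 10, .diff 0 48, .row 0 1782, .and 37 24, .and 0 51, .and 0 59, .and 0 63, .and 0 17, .and 0 66, .diff 0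
  70, .and 0 48, .diff 0 54, .row 0 1458, .and 29 15, .and 0 68, .and 0 53, .diff 0 26, .and 0 72, .and 0 74,
  .diff 0 66, .diff 0 54, .diff 0 8, .diff 0 48, .row 0 3850, .and 74 50, .and 0 79, .and 0 28, .and 0 65, .diff
  0 83, .and 0 39, .diff 0 77, .diff 0 47, .row 0 4057]

theorem run60 : ub 12 4060 row ins (ws.map fixMask) = some 60 := by decide +kernel

end Cfsg.Agent.H865.Meet.RuData
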